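import Cfsg.Agent.H153.Dl.F22.Q0

/-!
# An element of order 9 in `Fi22` : the data (helper153)

Generated data and kernel checks.
-/

set_option autoImplicit false
set_option maxRecDepth 100000
set_option Elab.async false

namespace Cfsg.Agent.H153.Dl.F22

open Cfsg Cfsg.Agent.Lib.PermNetPt Cfsg.Agent.H153.Dl Cfsg.Agent.H153.Dl.PR
open Cfsg.Spor.Fi22 (Gen)

/-- The data. -/
noncomputable def D : R22.Data where
  xw := xw
  c := (.a : Gen)
  u := u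
  p0 := 502
  I := [1, 2]
  Z := [3, 4]
  Gs := [(false, 3, q0),
    (false, 4, q1),
    (true, 1, q2),
    (true, 1, q3),
    (true, 2, q4)]
  good := [502, 1050]
  ws := [[rep 1 xw, rep 2 xw], [rep 3 xw, rep 6 xw], [y0a, y0b]]
  ls := [[1, 1, 0, 1, 1, 0, 1, 1, 0, 1, 1, 1],
    [1, 1, 1, 0, 1, 1, 0, 1, 1, 0, 1, 1, 1],
    [2, 2, 2, 0, 2, 2, 0, 2, 2, 0, 2, 2, 2],
    [1, 0, 2, 2, 0, 2, 2, 0, 2, 2, 0, 2, 0, 2, 0, 2, 2, 2],
    [1, 1, 0, 2, 2, 0, 2, 2, 0, 2, 2, 0, 2, 0, 2, 0, 2, 2, 2],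
    [2, 2, 2, 0, 1, 1, 0, 1, 1, 0, 1, 1, 0, 1, 0, 1, 0, 1, 1, 1],
    [0, 1, 1, 1, 0, 2, 2, 2, 0, 2, 2, 2, 0, 2, 0, 2, 2, 2],
    [0, 2, 2, 2, 2, 0, 1, 0, 1, 1, 1, 0, 1, 1, 0, 1, 0, 1, 0, 1, 1, 1, 1],
    [1, 0, 1, 1, 1, 0, 1, 1, 1, 0, 1, 1, 0, 1, 0, 1, 0, 1, 1, 1, 1]]

theorem hu : chkPt (R22.nw u) (R22.pn D.c) D.p0 = true := by decide +kernel

theorem hI : (D.I.all fun j => cf (R22.nw D.xw.reverse) (R22.nw D.u) (R22.nw [D.c]) false j D.p0) = true := by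
  decide +kernel

theorem hZ : (D.Z.all fun j => cf (R22.nw D.xw.reverse) (R22.nw D.u) (R22.nw [D.c]) true j D.p0) = true := by
  decide +kernel

theorem gen : R22.genB (D.u ++ D.c :: D.u.reverse) D.xw D.p0 D.ls = true := by decide +kernel

theorem comm_y0a : R22.chkEq (y0a ++ xw) (xw ++ y0a) = true := by decide +kernel

theorem comm_y0b : R22.chkEq (y0b ++ xw) (xw ++ y0b) = true := by decide +kernel

theorem covering : Nat.beq (Nat.land R22.U (R22.cov D.ws (mskG D.good D.Gs))) R22.U = true := by decide +kernel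

theorem hit : ∀ a ∈ D.Gs, (a.1 = true → a.2.1 ∈ D.I) ∧ (a.1 = false → a.2.1 ∈ D.Z) := by
  have key : ∀ (b : Bool) (j : ℕ) (q : List (ℕ × ℕ)), (Bool.rec (D.Z.contains j) (D.I.contains j) b : Bool) = true →
    ((b, j, q).1 = true → (b, j, q).2.1 ∈ D.I) ∧ ((b, j, q).1 = false → (b, j, q).2.1 ∈ D.Z) := by
    intro b j q h
    refine ⟨?_, ?_⟩
    · rintro rfl
      exact List.contains_iff_mem.1 h
    · rintro rfl
      exact List.contains_iff_mem.1 h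
  exact (List.forall_mem_cons.2 ⟨key _ _ _ rfl, (List.forall_mem_cons.2 ⟨key _ _ _ rfl, (List.forall_mem_cons.2 ⟨key _ _ _ rfl, (List.forall_mem_cons.2 ⟨key _ _ _ rfl, (List.forall_mem_cons.2 ⟨key _ _ _ rfl, (fun _ h => absurd h (by simp))⟩)⟩)⟩)⟩)⟩)

theorem cert : ∀ a ∈ D.Gs, R22.chkL (R22.nw D.xw.reverse) a.1 a.2.1 a.2.2 = true :=
  (List.forall_mem_cons.2 ⟨c0, (List.forall_mem_cons.2 ⟨c1, (List.forall_mem_cons.2 ⟨c2, (List.forall_mem_cons.2 ⟨c3, (List.forall_mem_cons.2 ⟨c4, (fun _ h => absurd h (by simp))⟩)⟩)⟩)⟩)⟩)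

theorem comm : ∀ s ∈ D.ws, ∀ w ∈ s, R22.word w * R22.word D.xw = R22.word D.xw * R22.word w := by
  exact (List.forall_mem_cons.2 ⟨(List.forall_mem_cons.2 ⟨R22.comm_rep 1, (List.forall_mem_cons.2 ⟨R22.comm_rep 2, (fun _ h => absurd h (by simp))⟩)⟩), (List.forall_mem_cons.2 ⟨(List.forall_mem_cons.2 ⟨R22.comm_rep 3, (List.forall_mem_cons.2 ⟨R22.comm_rep 6, (fun _ h => absurd h (by simp))⟩)⟩), (List.forall_mem_cons.2 ⟨(List.forall_mem_cons.2 ⟨R22.comm_of comm_y0a, (List.forall_mem_cons.2 ⟨R22.comm_of comm_y0b, (fun _ h => absurd h (by simp))⟩)⟩), (fun _ h => absurd h (by simp))⟩)⟩)⟩)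

theorem ok : D.Ok where
  hu := hu
  hI := List.all_eq_true.1 hI
  hZ := List.all_eq_true.1 hZ
  hit := hit
  cert := cert
  covering := R22.cv_of covering
  gen := gen
  comm := comm

/-- **The order of the centralizer of `x` is at most 54.** -/
theorem card_le : Nat.card (Subgroup.centralizer ({D.x} : Set _)) ≤ 54 :=
  ok.card_le

end Cfsg.Agent.H153.Dl.F22
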