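import Cfsg.Agent.H153.Dl.RFi22

/-!
# An element of order 9 in `Fi22` : the words (helper153)

Generated data.
-/

set_option autoImplicit false
set_option maxRecDepth 100000
set_option Elab.async false

namespace Cfsg.Agent.H153.Dl.F22

open Cfsg Cfsg.Agent.Lib.PermNetPt Cfsg.Agent.H153.Dl Cfsg.Agent.H153.Dl.PR
open Cfsg.Spor.Fi22 (Gen)

def xw : List Gen := [.a, .b, .c, .h, .d, .e, .f]

def y0a : List Gen := [.e, .c, .i, .h, .d, .c, .e, .d, .a, .c, .h, .b, .f, .e, .d, .c, .b, .i, .d, .h, .f, .b, .c, .e, .b, .d, .c, .b, .d, .c, .h, .i, .d, .c, .e, .d, .b, .c, .d, .a, .b, .f, .e, .h, .d, .c, .d, .h, .e, .b, .d, .a, .c, .b, .f, .i, .d, .h, .c, .e, .d, .c, .e, .h, .d, .i]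

def y0b : List Gen := [.i, .d, .h, .e, .c, .d, .e, .c, .h, .d, .i, .f, .b, .c, .a, .d, .b, .e, .h, .d, .c, .d, .h, .e, .f, .b, .a, .d, .c, .b, .d, .e, .c, .d, .i, .h, .c, .d, .b, .c, .d, .b, .e, .c, .b, .f, .h, .d, .i, .b, .c, .d, .e, .f, .b, .h, .c, .a, .d, .e, .c, .d, .h, .i, .c, .e]

def u : List Gen := [.g, .f, .d, .e, .c, .d, .h, .i, .b, .c, .d, .h, .e, .d, .c, .b]

end Cfsg.Agent.H153.Dl.F22
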